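import Cfsg.Agent.H88.AltSec.ChevSylow

/-!
# Exponents of automizers from the table of the Weyl group, and passage to an extension field
-/

set_option autoImplicit false

namespace Cfsg.Agent.H88.ChevSylow

open Cfsg.Lie Cfsg.Agent.H46 Cfsg.Agent.H88.AutSec
open scoped Matrix MatrixGroups

/-- All words for `W_k` from the table. -/
def words (cert : List (List (ℕ × ℕ))) : ℕ → List (List ℕ)
  | 0 => [[]]
  | k + 1 => (cert.getD k []).flatMap fun e => (words cert k).map fun v => wOf e ++ v

/-- The `k`-th power of a word sends the simple roots to themselves. -/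
def isOne (D : ChevalleyDatum) (T : Tab) (u : List ℕ) (k : ℕ) : Bool :=
  (List.range D.rank).all fun m => Nat.beq (appW' T (List.replicate k u).flatten (D.simple m)) (D.simple m)

/-- The `k`-th power of a word sends the simple roots to their negatives. -/
def isNeg (D : ChevalleyDatum) (T : Tab) (u : List ℕ) (k : ℕ) : Bool :=
  (List.range D.rank).all fun m => Nat.beq (appW' T (List.replicate k u).flatten (D.simple m)) (D.neg (D.simple m))

section

variable {D : ChevalleyDatum} (G : Good D)

include G

theorem exists_mem_words {cert : List (List (ℕ × ℕ))} (h : chkWeyl D G.tab cert = true) :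
    ∀ k ≤ D.rank, ∀ σ ∈ G.Wk k, ∃ u ∈ words cert k, (∀ i ∈ u, i < k) ∧ σ = G.permW u
  | 0, _, σ, ⟨w, hw, e⟩ => by
    refine ⟨[], List.mem_singleton_self _, by simp, ?_⟩
    rcases w with _ | ⟨i, w⟩
    exacts [e, absurd (hw i List.mem_cons_self) (Nat.not_lt_zero i)]
  | k + 1, hk, σ, ⟨w, hw, e⟩ => by
    have hstep : chkStep D G.tab k (cert.getD k []) = true := by
      simp only [chkWeyl, List.all_eq_true, List.mem_range] at h
      exact h k hk
    obtain ⟨d, hd, v, hv, hdv⟩ := G.step_surjective hk hstep w hw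
    obtain ⟨u, hu, hu', huv⟩ := exists_mem_words h k (Nat.le_of_succ_le hk) (G.permW v) ⟨v, hv, rfl⟩
    refine ⟨wOf d ++ u, List.mem_flatMap.2 ⟨d, hd, List.mem_map.2 ⟨u, hu, rfl⟩⟩, fun i hi => ?_,
      by rw [e, hdv, huv, G.permW_append]⟩
    rcases List.mem_append.1 hi with hi | hi
    · exact Nat.lt_succ_of_le ((G.entry_spec hk hstep hd).1 i hi)
    · exact Nat.lt_succ_of_lt (hu' i hi)

theorem permW_pow (u : List ℕ) : ∀ k : ℕ, G.permW u ^ k = G.permW (List.replicate k u).flatten
  | 0 => rfl
  | k + 1 => by rw [pow_succ', permW_pow u k, List.replicate_succ, List.flatten_cons, G.permW_append]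

/-- A property of all elements of `W` from a check on the table. -/
theorem weyl_powers {cert : List (List (ℕ × ℕ))} (hW : chkWeyl D G.tab cert = true) (ones negs : List ℕ)
    (h : ((words cert D.rank).all fun u =>
      (ones.any fun k => isOne D G.tab u k) || negs.any fun k => isNeg D G.tab u k) = true)
    {σ : Equiv.Perm (Fin D.nroots)} (hσ : σ ∈ G.finW D.rank) :
    (∃ k ∈ ones, σ ^ k = 1) ∨ ∃ k ∈ negs, ∀ r, (σ ^ k) r = G.negF r := by
  obtain ⟨u, hu, hu', rfl⟩ := exists_mem_words G hW D.rank le_rfl σ (G.mem_finW.1 hσ)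
  have hlt : ∀ k : ℕ, ∀ i ∈ (List.replicate k u).flatten, i < D.rank := fun k i hi => by
    obtain ⟨l, hl, hil⟩ := List.mem_flatten.1 hi
    rw [List.eq_of_mem_replicate hl] at hil
    exact hu' i hil
  rw [List.all_eq_true] at h
  have h' := h u hu
  simp only [Bool.or_eq_true, List.any_eq_true] at h'
  rcases h' with ⟨k, hk, h1⟩ | ⟨k, hk, h1⟩ <;>
    simp only [isOne, isNeg, List.all_eq_true, List.mem_range] at h1
  · refine Or.inl ⟨k, hk, ?_⟩
    rw [permW_pow G]
    refine G.permW_eq_one fun m => ?_
    have e : G.permW (List.replicate k u).flatten (G.simpleF m) = G.simpleF m := Fin.ext (by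
      rw [G.coe_permW_apply _ (hlt k)]; exact Nat.eq_of_beq_eq_true (h1 m m.2))
    rw [e]
    exact G.isPosRoot_simple m.2
  · refine Or.inr ⟨k, hk, fun r => ?_⟩
    rw [permW_pow G]
    obtain ⟨L, hL⟩ := G.exists_linear (List.replicate k u).flatten
    refine Fin.ext (G.rc_injective (G.permW _ r).2 (G.negF r).2 ?_)
    have hLm : ∀ m : Fin D.rank, L (Pi.single m 1) = -Pi.single m 1 := fun m => by
      have e : G.permW (List.replicate k u).flatten (G.simpleF m) = G.negF (G.simpleF m) := Fin.ext (by
        rw [G.coe_permW_apply _ (hlt k)]; exact Nat.eq_of_beq_eq_true (h1 m m.2))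
      have := hL (G.simpleF m)
      rw [e, G.rc_negF, show G.rc (G.simpleF m).val = Pi.single m 1 from G.rc_simple m.2] at this
      exact this.symm
    have hall : L.toLinearMap = -LinearMap.id := (Pi.basisFun ℤ (Fin D.rank)).ext fun m => by
      simpa using hLm m
    rw [hL, G.rc_negF]
    exact LinearMap.congr_fun hall (G.rc r)

theorem finW_card {cert : List (List (ℕ × ℕ))} (hW : chkWeyl D G.tab cert = true) {N : ℕ}
    (hN : evP (chainPoly cert D.rank) (1 : ℤ) = N) : (G.finW D.rank).card = N := by
  have h := G.sum_finW hW 1 D.rank le_rfl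
  rw [hN] at h
  simpa using h

/-- The exponent bound for automizers of `ℓ`-groups when the torus contains a Sylow `ℓ`-subgroup. -/
theorem autPow {F : Type*} [Field F] [Fintype F] {ℓ e : ℕ} [Fact ℓ.Prime] (hq : ℓ ∣ Fintype.card F - 1)
    (hW : ¬ ℓ ∣ (G.finW D.rank).card) (he : ∀ σ ∈ G.finW D.rank, σ ^ e = 1) : AutPow ↥(D.group F) ℓ e := by
  intro P hP h hh x hx
  obtain ⟨g, hg⟩ := exists_conj_diagonal G hq hW hP
  obtain ⟨σ, hσ, h1, -⟩ := automizer G g hg hh
  exact h1 e (he σ hσ) x hx

end

/-- A finite extension in which `m` divides the order of the multiplicative group. -/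
theorem exists_extension (F : Type*) [Field F] [Fintype F] (p : ℕ) [Fact p.Prime] [CharP F p] (m : ℕ)
    (hm : ¬ p ∣ m) :
    ∃ (K : Type) (_ : Field K) (_ : Fintype K) (_ : CharP K p) (_ : F →+* K), m ∣ Fintype.card K - 1 := by
  classical
  haveI : NeZero m := ⟨fun h => hm (h ▸ dvd_zero p)⟩
  haveI : NeZero m.totient := ⟨(Nat.totient_pos.2 (NeZero.pos m)).ne'⟩
  let K := FiniteField.Extension F p m.totient
  haveI : Fintype K := Fintype.ofFinite K
  haveI : CharP K p := charP_of_injective_algebraMap (algebraMap (ZMod p) K).injective p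
  refine ⟨K, inferInstance, inferInstance, inferInstance, algebraMap F K, ?_⟩
  obtain ⟨n, -, hn⟩ := FiniteField.card F p
  have hm' : m.Coprime p := ((Fact.out : p.Prime).coprime_iff_not_dvd.2 hm).symm
  have hcop : Nat.Coprime (Fintype.card F) m := hn ▸ hm'.symm.pow_left _
  rw [Fintype.card_eq_nat_card (α := K), FiniteField.natCard_extension, Nat.card_eq_fintype_card]
  exact (Nat.modEq_iff_dvd' (Nat.one_le_pow _ _ Fintype.card_pos)).1 (Nat.ModEq.pow_totient hcop).symm

/-- The embedding of Chevalley groups induced by a field homomorphism. -/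
def mapHom (D : ChevalleyDatum) {F K : Type*} [Field F] [Field K] (f : F →+* K) :
    ↥(D.group F) →* ↥(D.group K) :=
  ((Units.map (f.mapMatrix (m := D.Idx)).toMonoidHom).comp (D.group F).subtype).codRestrict _
    fun g => H47.map_group_le D f ⟨g, g.2, rfl⟩

theorem mapHom_injective (D : ChevalleyDatum) {F K : Type*} [Field F] [Field K] (f : F →+* K) :
    Function.Injective (mapHom D f) := fun a b h => by
  have e : ((a : GL D.Idx F) : Matrix D.Idx D.Idx F).map f = ((b : GL D.Idx F) : Matrix D.Idx D.Idx F).map f :=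
    congrArg (fun g : ↥(D.group K) => ((g : GL D.Idx K) : Matrix D.Idx D.Idx K)) h
  exact Subtype.ext (Units.ext (Matrix.map_injective f.injective e))

end Cfsg.Agent.H88.ChevSylow
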