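import Cfsg.Agent.H46.TwistWeylD4
import Cfsg.Agent.H46.TwistOrder
import Cfsg.Agent.H65.Chev.FieldFixed
import Cfsg.Agent.H88.AltSec.ChevExt

/-!
# The twisted groups of type D₄: embedding in larger ones, automizers in the twisted torus
-/

set_option autoImplicit false
set_option maxRecDepth 100000

namespace Cfsg.Agent.H88.AltD4Twist

open Cfsg.Lie Cfsg.Agent.H46 Cfsg.Agent.H65 Cfsg.Agent.H88.AutSec Cfsg.Agent.H88.ChevSylow
open scoped Matrix MatrixGroups

theorem twistedD4_le {K : Type*} [Field K] (q : ℕ) : twistedD4 K q ≤ chevD4.group K := by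
  refine (Subgroup.closure_le _).2 ?_
  rintro g ⟨w, hw, hg⟩
  rcases hw with ⟨t, -, r, -, rfl⟩ | ⟨t, rs, -, rfl⟩
  · rw [(word_one goodD4 ..).1 hg]; exact goodD4.xg_mem_group _ _
  · rw [(word_three goodD4 ..).1 hg]
    exact mul_mem (mul_mem (goodD4.xg_mem_group _ _) (goodD4.xg_mem_group _ _)) (goodD4.xg_mem_group _ _)

variable {K : Type*} [Field K] [Fintype K] {q : ℕ}

/-- `³D₄(q) ≤ ³D₄(q ^ (3k+1))`. -/
theorem map_le (hK : Fintype.card K = q ^ 3) {L : Type*} [Field L] (f : K →+* L) (k : ℕ) :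
    (twistedD4 K q).map (mapGL chevD4 f) ≤ twistedD4 L (q ^ (3 * k + 1)) := by
  rw [twistedD4, ChevalleyDatum.genSubgroup, MonoidHom.map_closure, Subgroup.closure_le]
  rintro _ ⟨g, ⟨w, hw, hg⟩, rfl⟩
  have h3 : ∀ (t : K) (i : ℕ), t ^ q ^ (3 * i) = t := fun t i => by
    induction i with
    | zero => simp
    | succ i ih => rw [show 3 * (i + 1) = 3 * i + 3 by omega, pow_add, pow_mul, ih, ← hK, FiniteField.pow_card]
  refine Subgroup.subset_closure ⟨w.map fun x => (x.1, f x.2), ?_, ?_⟩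
  · rcases hw with ⟨t, ht, r, hr, rfl⟩ | ⟨t, rs, hrs, rfl⟩
    · refine Or.inl ⟨f t, ?_, r, hr, rfl⟩
      rw [← map_pow, pow_succ, pow_mul, h3, ht]
    · refine Or.inr ⟨f t, rs, hrs, ?_⟩
      have e2 : t ^ (q ^ (3 * k + 1)) ^ 2 = t ^ q ^ 2 := by
        rw [← pow_mul, show (3 * k + 1) * 2 = 3 * (2 * k) + 2 by ring, pow_add, pow_mul, h3]
      simp only [List.map_cons, List.map_nil, ← map_pow, e2]
      rw [pow_succ (q) (3 * k), pow_mul, h3]
  · rw [coe_mapGL, hg, H47.wordMat_map]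

/-- The embedding in the larger group. -/
def embed (hK : Fintype.card K = q ^ 3) {L : Type*} [Field L] (f : K →+* L) (k : ℕ) :
    ↥(twistedD4 K q) →* ↥(twistedD4 L (q ^ (3 * k + 1))) :=
  ((mapGL chevD4 f).comp (twistedD4 K q).subtype).codRestrict _ fun g => map_le hK f k ⟨g, g.2, rfl⟩

theorem embed_injective (hK : Fintype.card K = q ^ 3) {L : Type*} [Field L] (f : K →+* L) (k : ℕ) :
    Function.Injective (embed hK f k) := fun _ _ h =>
  Subtype.ext (mapGL_injective f (congrArg Subtype.val h))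

/-- The twisted torus in the twisted group. -/
def torusT (K : Type*) [Field K] (q : ℕ) : Subgroup ↥(twistedD4 K q) :=
  (chevD4.diagonalSubgroup K).subgroupOf (twistedD4 K q)

/-- Indices of the twisted torus. -/
theorem torus_index (f : K →+* K) (hf : ∀ x, f x = x ^ q) (hK : Fintype.card K = q ^ 3) :
    (torusT K q).index = q ^ 12 * (q + 1) * (q ^ 3 + 1) * (q ^ 8 + q ^ 4 + 1) := by
  have hq := one_lt_q f hf hK three_pos
  have hT : Nat.card (torusT K q) = (q - 1) ^ 2 * (q ^ 2 + q + 1) := by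
    rw [← card_H0_D4 f hf hK, ← twistedD4_eq f hf hK, torusT, ← Subgroup.inf_subgroupOf_right,
      Nat.card_congr (Subgroup.subgroupOfEquivOfLe inf_le_right).toEquiv]
  have e := Subgroup.card_mul_index (torusT K q)
  rw [hT, show Nat.card ↥(twistedD4 K q) = Nat.card ↥(tdD4 f).G1 from by rw [twistedD4_eq f hf hK],
    card_twistD4 f hf hK] at e
  refine Nat.eq_of_mul_eq_mul_left (Nat.mul_pos (pow_pos (by omega : 0 < q - 1) 2) (by positivity)) (e.trans ?_)
  obtain ⟨s, rfl⟩ : ∃ s, q = s + 1 := ⟨q - 1, by omega⟩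
  rw [Nat.add_sub_cancel, show (s + 1) ^ 2 - 1 = s * (s + 2) from Nat.sub_eq_of_eq_add (by ring),
    show (s + 1) ^ 6 - 1 = s * ((s + 1) ^ 2 + (s + 1) + 1) * ((s + 1) ^ 3 + 1) from Nat.sub_eq_of_eq_add (by ring)]
  ring

theorem rows_exp : ∀ k : Fin twRowsD4.length, ∀ i : Fin chevD4.rank,
    appT graphD4 goodD4 (List.replicate 6 (tWord graphD4 (twRowsD4.get k))).flatten (chevD4.simple i) =
      chevD4.simple i := by decide +kernel

/-- A monomial element fusing as a given element of the twisted group, of twisted Weyl image of exponent 6. -/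
theorem exists_monomial_twisted (f : K →+* K) (hf : ∀ x, f x = x ^ q) (hK : Fintype.card K = q ^ 3)
    {g : GL chevD4.Idx K} (hg : g ∈ twistedD4 K q) :
    ∃ n ∈ chevD4.monomialSubgroup K, goodD4.perm n ^ 6 = 1 ∧
      ∀ t ∈ chevD4.diagonalSubgroup K, g * t * g⁻¹ ∈ chevD4.diagonalSubgroup K → n * t * n⁻¹ = g * t * g⁻¹ := by
  rw [twistedD4_eq f hf hK] at hg
  obtain ⟨n, hn, hcell⟩ := (tdD4 f).exists_cell hg
  have hnm : n ∈ chevD4.monomialSubgroup K := (tdD4 f).N0_le_N hn
  refine ⟨n, hnm, ?_, fusion_of_cell goodD4 hnm ?_⟩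
  · obtain ⟨w, hw⟩ := GraphData.perm_mem_N0 okD4 coxD4 f twRowsD4 twTreeD4 chkTwistD4 hn
    obtain ⟨k, hk⟩ := GraphData.exists_row okD4 coxD4 f twRowsD4 twTreeD4 chkTwistD4 w
    have hpow : ∀ (u : List (Fin graphD4.m)) (i : ℕ), graphD4.tPerm goodD4 u ^ i =
        graphD4.tPerm goodD4 (List.replicate i u).flatten := fun u i => by
      induction i with
      | zero => simp [GraphData.tPerm]
      | succ i ih =>
        rw [pow_succ', ih, List.replicate_succ, List.flatten_cons, GraphData.tPerm_append okD4]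
    rw [hw, hk, hpow, show (1 : Equiv.Perm (Fin chevD4.nroots)) = graphD4.tPerm goodD4 [] by simp [GraphData.tPerm]]
    refine GraphData.tPerm_ext okD4 K f coxD4 fun i => Fin.ext ?_
    rw [GraphData.coe_tPerm okD4, GraphData.coe_tPerm okD4]
    exact rows_exp k i
  · obtain ⟨u, hu, h, hh, u', hu', rfl⟩ := hcell
    rw [← GraphData.inf_U_G1 okD4 coxD4 f] at hu hu'
    rw [GraphData.tdata_H0] at hh
    exact goodD4.mem_bruhatCell.2 ⟨u, Subgroup.mem_sup_left hu.1, h * u', mul_mem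
      (Subgroup.mem_sup_right (GraphData.fixTorus_le_diagonal okD4 f hh)) (Subgroup.mem_sup_left hu'.1),
      by simp only [mul_assoc]⟩

/-- Automizers of the subgroups of the twisted torus have exponent dividing 6. -/
theorem commute_pow_six (f : K →+* K) (hf : ∀ x, f x = x ^ q) (hK : Fintype.card K = q ^ 3)
    {P : Subgroup ↥(twistedD4 K q)} (g : ↥(twistedD4 K q)) (hg : ∀ x ∈ P, g * x * g⁻¹ ∈ torusT K q)
    {h : ↥(twistedD4 K q)} (hh : h ∈ Subgroup.normalizer (P : Set ↥(twistedD4 K q))) {x : ↥(twistedD4 K q)}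
    (hx : x ∈ P) : h ^ 6 * x = x * h ^ 6 := by
  set ι := Subgroup.inclusion (twistedD4_le (K := K) q)
  obtain ⟨n, hn, h6, hfus⟩ := exists_monomial_twisted f hf hK (g * h * g⁻¹).2
  apply Subgroup.inclusion_injective (twistedD4_le (K := K) q)
  rw [map_mul, map_mul, map_pow]
  refine commute_pow_of_fusion goodD4 (P := P.map ι) (ι g) ?_
    (Subgroup.le_normalizer_map ι (Subgroup.mem_map_of_mem ι hh)) hn ?_ h6 _ (Subgroup.mem_map_of_mem ι hx)
  · rintro _ ⟨y, hy, rfl⟩
    rw [← map_inv, ← map_mul, ← map_mul]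
    exact hg y hy
  · rw [← map_inv, ← map_mul, ← map_mul]
    exact hfus

theorem five_check : (1 : ZMod 5) ^ 12 * (1 + 1) * (1 ^ 3 + 1) * (1 ^ 8 + 1 ^ 4 + 1) ≠ 0 := by decide +kernel

/-- Outside characteristic 5 the sixth power of an element normalizing a 5-subgroup centralizes it. -/
theorem autPow_five (p a : ℕ) [Fact p.Prime] [CharP K p] (ha : 1 ≤ a) (hp : p ≠ 5)
    (hK : Fintype.card K = (p ^ a) ^ 3) : AutPow ↥(twistedD4 K (p ^ a)) 5 6 := by
  haveI : Fact (Nat.Prime 5) := ⟨by norm_num⟩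
  let L := FiniteField.Extension K p 4
  haveI : Fintype L := Fintype.ofFinite L
  have hL : Fintype.card L = ((p ^ a) ^ (3 * 1 + 1)) ^ 3 := by
    rw [Fintype.card_eq_nat_card, FiniteField.natCard_extension, Nat.card_eq_fintype_card, hK]
    ring
  refine AutPow.comap ?_ (embed hK (algebraMap K L) 1) (embed_injective hK _ 1)
  set Q := (p ^ a) ^ (3 * 1 + 1)
  obtain ⟨f, hf⟩ := exists_qFrob (F := L) (q := Q) (d := 3)
    ((Nat.Prime.isPrimePow Fact.out).pow (by omega) |>.pow (by omega)) (by omega) hL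
  have hidx : ¬ 5 ∣ (torusT L Q).index := by
    rw [torus_index f hf hL]
    intro h5
    have hQ : (Q : ZMod 5) = 1 := by
      show (((p ^ a) ^ (3 * 1 + 1) : ℕ) : ZMod 5) = 1
      push_cast
      exact ZMod.pow_card_sub_one_eq_one (p := 5) (pow_ne_zero a fun h0 => hp
        ((Nat.prime_dvd_prime_iff_eq (by norm_num) (Fact.out : p.Prime)).1
          ((ZMod.natCast_eq_zero_iff _ _).1 h0)).symm)
    have e := (ZMod.natCast_eq_zero_iff _ _).2 h5
    push_cast at e
    rw [hQ] at e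
    exact five_check e
  intro P hP h hh x hx
  obtain ⟨g, hg⟩ := exists_conj_le _ hidx hP
  exact commute_pow_six f hf hL g hg hh hx

end Cfsg.Agent.H88.AltD4Twist
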