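import Mathlib

/-!
# Alternating sections excluded by exponents of automizers

If all automizers of `ℓ`-subgroups of `G` have exponent dividing `e`, then so do those of every section of `G`.
The lifting step is the Frattini argument in the preimage of a cyclic subgroup.
-/

set_option autoImplicit false

namespace Cfsg.Agent.H88.AutSec

variable {H A : Type*} [Group H] [Group A]

/-- Lifting the normalizer of a cyclic `ℓ`-subgroup of an image. -/
theorem exists_lift [Finite H] (φ : H →* A) {ℓ : ℕ} [hℓ : Fact ℓ.Prime] (x : H) {k : ℕ}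
    (hk : (φ x) ^ ℓ ^ k = 1) :
    ∃ P : Subgroup H, IsPGroup ℓ P ∧ (∃ x' ∈ P, φ x' = φ x) ∧
      ∀ h₀ : H, φ h₀ * φ x * (φ h₀)⁻¹ ∈ Subgroup.zpowers (φ x) →
        ∃ h ∈ Subgroup.normalizer (P : Set H), φ h = φ h₀ := by
  classical
  -- an ℓ-element over φ x
  have hn : 0 < orderOf x := orderOf_pos x
  set n := orderOf x
  set r := ordCompl[ℓ] n with hr
  have hcop : Nat.Coprime (ℓ ^ k) r :=
    (Nat.coprime_ordCompl hℓ.out hn.ne').pow_left k
  obtain ⟨u, hu1, hu2⟩ := Nat.chineseRemainder hcop 1 0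
  have hx' : φ (x ^ u) = φ x := by
    rw [map_pow]
    conv_rhs => rw [← pow_one (φ x)]
    exact pow_eq_pow_of_modEq hu1 hk
  have hpe : (x ^ u) ^ ordProj[ℓ] n = 1 := by
    rw [← pow_mul, ← orderOf_dvd_iff_pow_eq_one, mul_comm]
    calc orderOf x = ordProj[ℓ] n * ordCompl[ℓ] n := (Nat.ordProj_mul_ordCompl_eq_self n ℓ).symm
      _ ∣ ordProj[ℓ] n * u := mul_dvd_mul_left _ ((Nat.modEq_zero_iff_dvd).1 hu2)
  set x' := x ^ u
  set M := (Subgroup.zpowers (φ x)).comap φ with hM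
  have hxM : x' ∈ M := by rw [hM, Subgroup.mem_comap, hx']; exact Subgroup.mem_zpowers _
  have hpg : IsPGroup ℓ (Subgroup.zpowers (⟨x', hxM⟩ : M)) := by
    intro z
    obtain ⟨j, hj⟩ := Subgroup.mem_zpowers_iff.1 z.2
    refine ⟨n.factorization ℓ, Subtype.ext ?_⟩
    rw [Subgroup.coe_pow, ← hj, ← zpow_natCast, ← zpow_mul, mul_comm, zpow_mul, zpow_natCast]
    rw [show (⟨x', hxM⟩ : M) ^ ℓ ^ n.factorization ℓ = 1 from Subtype.ext hpe, one_zpow]
    rfl
  obtain ⟨S, hS⟩ := hpg.exists_le_sylow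
  refine ⟨(S : Subgroup M).map M.subtype, S.2.map _, ⟨x', ⟨⟨x', hxM⟩, hS (Subgroup.mem_zpowers _), rfl⟩, hx'⟩,
    fun h₀ hh₀ => ?_⟩
  have hMc : ∀ m ∈ M, h₀ * m * h₀⁻¹ ∈ M := fun m hm => by
    simp only [hM, Subgroup.mem_comap, map_mul, map_inv] at hm ⊢
    obtain ⟨j, hj⟩ := Subgroup.mem_zpowers_iff.1 hm
    rw [← hj, ← conj_zpow]
    exact Subgroup.zpow_mem _ hh₀ j
  let c : M →* M :=
    { toFun := fun m => ⟨h₀ * m * h₀⁻¹, hMc m m.2⟩
      map_one' := Subtype.ext (by simp)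
      map_mul' := fun a b => Subtype.ext (by simp [mul_assoc]) }
  have hc : Function.Injective c := fun a b h => Subtype.ext (by
    have := congrArg Subtype.val h
    simpa [c] using this)
  obtain ⟨Q, hQ⟩ := (S.2.map c).exists_le_sylow
  have hQe : (S : Subgroup M).map c = Q := by
    refine Subgroup.eq_of_le_of_card_ge hQ ?_
    rw [← Nat.card_congr ((S : Subgroup M).equivMapOfInjective c hc).toEquiv, Sylow.card_eq_multiplicity,
      Sylow.card_eq_multiplicity]
  obtain ⟨m, hm⟩ := MulAction.exists_smul_eq M Q S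
  have hh1 : (m : H) * h₀ ∈ Subgroup.normalizer (((S : Subgroup M).map M.subtype : Subgroup H) : Set H) := by
    apply mem_normalizer_of_map_le
    rintro _ ⟨_, ⟨s, hs, rfl⟩, rfl⟩
    have e : m * c s * m⁻¹ ∈ (S : Subgroup M) := by
      rw [← hm]
      exact ⟨c s, hQe ▸ ⟨s, hs, rfl⟩, rfl⟩
    exact ⟨_, e, by simp [c, mul_assoc]⟩
  obtain ⟨j, hj⟩ := Subgroup.mem_zpowers_iff.1 (show φ (m : H) ∈ Subgroup.zpowers (φ x) from m.2)
  refine ⟨x' ^ (-j) * ((m : H) * h₀), mul_mem (Subgroup.le_normalizer ?_) hh1, ?_⟩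
  · exact ⟨⟨x', hxM⟩ ^ (-j), zpow_mem (hS (Subgroup.mem_zpowers _)) _, by simp⟩
  · rw [map_mul, map_zpow, hx', map_mul, ← hj, ← mul_assoc, ← zpow_add, neg_add_cancel, zpow_zero, one_mul]
where
  mem_normalizer_of_map_le {G : Type _} [Group G] [Finite G] {P : Subgroup G} {g : G}
      (h : P.map (MulAut.conj g).toMonoidHom ≤ P) : g ∈ Subgroup.normalizer (P : Set G) := by
    have e : P.map (MulAut.conj g).toMonoidHom = P :=
      Subgroup.eq_of_le_of_card_ge h (le_of_eq (Nat.card_congr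
        (P.equivMapOfInjective _ (MulEquiv.injective _)).toEquiv))
    rw [Subgroup.mem_normalizer_iff]
    intro z
    conv_rhs => rw [← e]
    simp [Subgroup.mem_map, MulAut.conj_apply]

/-- The `e`-th power of every element normalizing an `ℓ`-subgroup centralizes it. -/
def AutPow (G : Type*) [Group G] (ℓ e : ℕ) : Prop :=
  ∀ P : Subgroup G, IsPGroup ℓ P → ∀ h ∈ Subgroup.normalizer (P : Set G), ∀ x ∈ P, h ^ e * x = x * h ^ e

theorem AutPow.comap {G G' : Type*} [Group G] [Group G'] {ℓ e : ℕ} (hG : AutPow G' ℓ e) (ι : G →* G')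
    (hι : Function.Injective ι) : AutPow G ℓ e := by
  intro P hP h hh x hx
  apply hι
  rw [map_mul, map_mul, map_pow]
  exact hG (P.map ι) (hP.map ι) (ι h)
    (Subgroup.le_normalizer_map ι (Subgroup.mem_map_of_mem ι hh)) (ι x) ⟨x, hx, rfl⟩

/-- A pair of commuting elements' automizer cannot violate the exponent bound in a section. -/
theorem no_section [Finite H] {ℓ e : ℕ} [Fact ℓ.Prime] (hH : AutPow H ℓ e) (φ : H →* A)
    (hφ : Function.Surjective φ) {y a : A} {k : ℕ} (hy : y ^ ℓ ^ k = 1)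
    (ha : a * y * a⁻¹ ∈ Subgroup.zpowers y) (hne : a ^ e * y ≠ y * a ^ e) : False := by
  obtain ⟨x, rfl⟩ := hφ y
  obtain ⟨h₀, rfl⟩ := hφ a
  obtain ⟨P, hP, ⟨x', hx', hxe⟩, hl⟩ := exists_lift φ x hy
  obtain ⟨h, hh, he⟩ := hl h₀ ha
  exact hne (by rw [← he, ← hxe, ← map_pow, ← map_mul, ← map_mul, hH P hP h hh x' hx'])

/-- An element of order prime to `ℓ'`-exponent `e` normalizing an `ℓ`-subgroup centralizes it. -/
theorem commute_of_coprime {G : Type*} [Group G] {ℓ e : ℕ} (hG : AutPow G ℓ e) {P : Subgroup G}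
    (hP : IsPGroup ℓ P) {h : G} (hh : h ∈ Subgroup.normalizer (P : Set G)) (he : Nat.Coprime (orderOf h) e)
    {x : G} (hx : x ∈ P) : h * x = x * h := by
  have hmem : h ∈ Subgroup.zpowers (h ^ e) := by
    refine Subgroup.mem_zpowers_iff.2 ⟨Nat.gcdB (orderOf h) e, ?_⟩
    have hb := Nat.gcd_eq_gcd_ab (orderOf h) e
    rw [he.gcd_eq_one] at hb
    conv_rhs => rw [← zpow_one h]
    rw [← zpow_natCast, ← zpow_mul]
    exact zpow_eq_zpow_iff_modEq.2 (Int.modEq_iff_dvd.2 ⟨Nat.gcdA (orderOf h) e, by push_cast at hb; linarith⟩)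
  obtain ⟨j, hj⟩ := Subgroup.mem_zpowers_iff.1 hmem
  have hc : Commute (h ^ e) x := hG P hP h hh x hx
  rw [← hj]
  exact (hc.zpow_left j).eq

/-- The embedding of alternating groups along an injection of the points. -/
noncomputable def altEmbed {s r : ℕ} (hsr : s ≤ r) : alternatingGroup (Fin s) →* alternatingGroup (Fin r) :=
  ((Equiv.Perm.viaEmbeddingHom (Fin.castLEEmb hsr)).comp (alternatingGroup (Fin s)).subtype).codRestrict _
    fun σ => by
      rw [Equiv.Perm.mem_alternatingGroup]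
      change Equiv.Perm.sign (Equiv.Perm.viaEmbedding (σ : Equiv.Perm (Fin s)) (Fin.castLEEmb hsr)) = 1
      rw [Equiv.Perm.viaEmbedding, Equiv.Perm.sign_extendDomain]
      exact σ.2

theorem altEmbed_injective {s r : ℕ} (hsr : s ≤ r) : Function.Injective (altEmbed hsr) := by
  intro a b h
  exact Subtype.ext (Equiv.Perm.viaEmbeddingHom_injective _ (congrArg Subtype.val h))

end Cfsg.Agent.H88.AutSec
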