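import Cfsg.Agent.H46.Order
import Cfsg.Agent.H47.FieldMap
import Cfsg.Agent.H88.AltSec.AutSec

/-!
# Sylow subgroups in the split torus and their automizers

If `ℓ ∣ q - 1` and `ℓ ∤ |W|` the split torus contains a Sylow `ℓ`-subgroup of the Chevalley group, and the automizer
of a subgroup of the torus is induced by `W`.
-/

set_option autoImplicit false

namespace Cfsg.Agent.H88.ChevSylow

open Cfsg.Lie Cfsg.Agent.H46
open scoped Matrix MatrixGroups

/-- In a finite group, a subgroup of index prime to `ℓ` contains a conjugate of every `ℓ`-subgroup. -/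
theorem exists_conj_le {C : Type*} [Group C] [Finite C] {ℓ : ℕ} [Fact ℓ.Prime] (T : Subgroup C)
    (hT : ¬ ℓ ∣ T.index) {P : Subgroup C} (hP : IsPGroup ℓ P) : ∃ c : C, ∀ x ∈ P, c * x * c⁻¹ ∈ T := by
  classical
  obtain ⟨S, hS⟩ := hP.exists_le_sylow
  let R : Sylow ℓ T := default
  have hRp : IsPGroup ℓ ((R : Subgroup T).map T.subtype) := R.2.map _
  have hRi : ¬ ℓ ∣ ((R : Subgroup T).map T.subtype).index := by
    rw [Subgroup.index_map_subtype]
    exact (Fact.out : ℓ.Prime).not_dvd_mul R.not_dvd_index hT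
  obtain ⟨c, hc⟩ := MulAction.exists_smul_eq C S (hRp.toSylow hRi)
  refine ⟨c, fun x hx => Subgroup.map_subtype_le (R : Subgroup T) ?_⟩
  have : c * x * c⁻¹ ∈ ((c • S : Sylow ℓ C) : Subgroup C) := ⟨x, hS hx, rfl⟩
  rw [hc] at this
  exact this

variable {D : ChevalleyDatum} (G : Good D) {F : Type*} [Field F]

include G

/-- An element of the Bruhat cell of `n` fuses torus elements as `n` does. -/
theorem fusion_of_cell {g n : GL D.Idx F} (hn : n ∈ D.monomialSubgroup F) (hcell : g ∈ G.bruhatCell n) :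
    ∀ t ∈ D.diagonalSubgroup F, g * t * g⁻¹ ∈ D.diagonalSubgroup F → n * t * n⁻¹ = g * t * g⁻¹ := by
  obtain ⟨b, hb, u, hu, rfl⟩ := G.bruhatCell_normal_form hn hcell
  intro h₁ h1 hg1
  generalize hc : b * n * u * h₁ * (b * n * u)⁻¹ = h₂
  have h2 : h₂ ∈ D.diagonalSubgroup F := hc ▸ hg1
  have hu' : h₁⁻¹ * u * h₁ ∈ G.posSub (G.invSet n) := by
    obtain ⟨z, rfl⟩ := G.mem_diagonal.1 h1
    rw [← map_inv]
    have hle : G.posSub (F := F) (G.invSet n) ≤
        (G.posSub (G.invSet n)).comap (MulAut.conj (G.torus z⁻¹)).toMonoidHom := by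
      refine (Subgroup.closure_le _).2 ?_
      rintro x ⟨r, t, hr, rfl⟩
      simp only [SetLike.mem_coe, Subgroup.mem_comap, MulEquiv.coe_toMonoidHom, MulAut.conj_apply]
      rw [G.torus_conj_xg z⁻¹ hr.1.1]
      exact G.xg_mem_posSub hr.1 hr.2 _
    simpa [map_inv] using hle hu
  have e : b * (n * h₁ * n⁻¹) * n * (h₁⁻¹ * u * h₁) = h₂ * b * n * u := by
    rw [← hc]; group
  obtain ⟨-, -, hb'⟩ := G.bruhat_unique (mul_mem hb (Subgroup.mem_sup_right (G.diagonal_normalized hn h1)))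
    (mul_mem (Subgroup.mem_sup_right h2) hb) hn hn hu' hu e
  have e' := hb' rfl
  obtain ⟨v, hv, h, hh, rfl⟩ := G.mem_borel.1 hb
  set k := n * h₁ * n⁻¹ with hk
  have hkH : k ∈ D.diagonalSubgroup F := G.diagonal_normalized hn h1
  have e2 : h₂⁻¹ * k = h₂⁻¹ * v⁻¹ * h₂ * v := by
    have e3 : k = v⁻¹ * h₂ * v := by
      calc k = v⁻¹ * (v * h * k) * h⁻¹ := by rw [mul_assoc v h k, G.diagonal_comm hh hkH]; group
        _ = v⁻¹ * h₂ * v := by rw [e']; group
    rw [e3]; group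
  have hmem : h₂⁻¹ * k ∈ D.posUnipotent F := by
    rw [e2]
    have h4 := G.conj_posUnipotent (inv_mem (Subgroup.mem_sup_right h2 : h₂ ∈ D.borelSubgroup F)) (inv_mem hv)
    rw [inv_inv] at h4
    exact mul_mem h4 hv
  exact (inv_mul_eq_one.1 ((Subgroup.eq_bot_iff_forall _).1 (G.posUnipotent_inf_diagonal (F := F)) _
    (Subgroup.mem_inf.2 ⟨hmem, mul_mem (inv_mem h2) hkH⟩))).symm

/-- Fusion in the torus, uniformly in the conjugated element. -/
theorem exists_monomial {g : GL D.Idx F} (hg : g ∈ D.group F) :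
    ∃ n ∈ D.monomialSubgroup F, ∀ t ∈ D.diagonalSubgroup F, g * t * g⁻¹ ∈ D.diagonalSubgroup F →
      n * t * n⁻¹ = g * t * g⁻¹ := by
  obtain ⟨n, hn, hcell⟩ := G.bruhat hg
  exact ⟨n, hn, fusion_of_cell G hn hcell⟩

theorem perm_pow {n : GL D.Idx F} (hn : n ∈ D.monomialSubgroup F) :
    ∀ k : ℕ, G.perm (n ^ k) = G.perm n ^ k
  | 0 => by simpa using G.perm_eq (F := F) G.monRel_one
  | k + 1 => by rw [pow_succ, G.perm_mul (pow_mem hn k) hn, perm_pow hn k, pow_succ]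

/-- A monomial element permuting the roots trivially centralizes the torus. -/
theorem commute_of_perm_eq_one {n t : GL D.Idx F} (hn : n ∈ D.monomialSubgroup F) (ht : t ∈ D.diagonalSubgroup F)
    (h : G.perm n = 1) : n * t = t * n :=
  G.diagonal_comm ((G.perm_eq_one_iff hn).1 h) ht

/-- A monomial element negating all roots inverts the torus. -/
theorem inverts_of_perm_neg {n t : GL D.Idx F} (hn : n ∈ D.monomialSubgroup F) (ht : t ∈ D.diagonalSubgroup F)
    (h : ∀ r, G.perm n r = G.negF r) : n * t * n⁻¹ = t⁻¹ := by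
  obtain ⟨z, hz⟩ := G.mem_diagonal.1 (G.diagonal_normalized hn ht)
  obtain ⟨w, rfl⟩ := G.mem_diagonal.1 ht
  have key : ∀ s : Fin D.nroots, G.torusVal z (G.negF s) = G.torusVal w s := fun s => by
    obtain ⟨c, hc⟩ := G.conj_xg_eq hn s
    have e1 : (n * G.torus w * n⁻¹) * (n * G.xg s (1 : F) * n⁻¹) * (n * G.torus w * n⁻¹)⁻¹ =
        n * (G.torus w * G.xg s (1 : F) * (G.torus w)⁻¹) * n⁻¹ := by group
    rw [hz, G.torus_conj_xg w s.2, hc, hc, G.torus_conj_xg z (G.perm n s).2, h] at e1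
    have e2 := G.xg_injective (G.negF s).2 e1
    simp only [mul_one] at e2
    exact Units.ext (mul_right_cancel₀ c.ne_zero (e2.trans (mul_comm _ _)))
  rw [hz]
  refine eq_inv_of_mul_eq_one_left ?_
  rw [← map_mul, G.torus_eq_one_iff]
  intro s hs
  have h2 := key (G.negF ⟨s, hs⟩)
  rw [G.negF_negF] at h2
  rw [G.torusVal_mul, h2]
  change G.torusVal w (D.neg s) * G.torusVal w s = 1
  rw [G.torusVal_neg hs, inv_mul_cancel]

/-- Powers of a normalizing element act on a subgroup of the torus as the powers of a fusing monomial element. -/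
theorem conj_pow_eq {P : Subgroup ↥(D.group F)} (g : ↥(D.group F))
    (hg : ∀ x ∈ P, ((g * x * g⁻¹ : ↥(D.group F)) : GL D.Idx F) ∈ D.diagonalSubgroup F) {h : ↥(D.group F)}
    (hh : h ∈ Subgroup.normalizer (P : Set ↥(D.group F))) {n : GL D.Idx F}
    (hfus : ∀ t ∈ D.diagonalSubgroup F,
      ((g * h * g⁻¹ : ↥(D.group F)) : GL D.Idx F) * t * ((g * h * g⁻¹ : ↥(D.group F)) : GL D.Idx F)⁻¹ ∈
        D.diagonalSubgroup F → n * t * n⁻¹ =
      ((g * h * g⁻¹ : ↥(D.group F)) : GL D.Idx F) * t * ((g * h * g⁻¹ : ↥(D.group F)) : GL D.Idx F)⁻¹) :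
    ∀ k : ℕ, ∀ x ∈ P, ((g * (h ^ k * x * (h ^ k)⁻¹) * g⁻¹ : ↥(D.group F)) : GL D.Idx F) =
      n ^ k * ((g * x * g⁻¹ : ↥(D.group F)) : GL D.Idx F) * (n ^ k)⁻¹ := by
  set f := g * h * g⁻¹ with hf
  intro k
  induction k with
  | zero => intro x _; simp
  | succ k ih =>
    intro x hx
    have hx1 : h * x * h⁻¹ ∈ P := (Subgroup.mem_normalizer_iff.1 hh x).1 hx
    have e := hfus _ (hg x hx) (by
      have := hg _ hx1
      rwa [show g * (h * x * h⁻¹) * g⁻¹ = f * (g * x * g⁻¹) * f⁻¹ by rw [hf]; group] at this)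
    rw [show h ^ (k + 1) * x * (h ^ (k + 1))⁻¹ = h ^ k * (h * x * h⁻¹) * (h ^ k)⁻¹ by rw [pow_succ]; group,
      ih _ hx1, show g * (h * x * h⁻¹) * g⁻¹ = f * (g * x * g⁻¹) * f⁻¹ by rw [hf]; group]
    push_cast at e ⊢
    rw [← e, pow_succ]
    group

/-- A power of a normalizing element centralizes if that of the permutation of the fusing element is trivial. -/
theorem commute_pow_of_fusion {P : Subgroup ↥(D.group F)} (g : ↥(D.group F))
    (hg : ∀ x ∈ P, ((g * x * g⁻¹ : ↥(D.group F)) : GL D.Idx F) ∈ D.diagonalSubgroup F) {h : ↥(D.group F)}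
    (hh : h ∈ Subgroup.normalizer (P : Set ↥(D.group F))) {n : GL D.Idx F} (hn : n ∈ D.monomialSubgroup F)
    (hfus : ∀ t ∈ D.diagonalSubgroup F,
      ((g * h * g⁻¹ : ↥(D.group F)) : GL D.Idx F) * t * ((g * h * g⁻¹ : ↥(D.group F)) : GL D.Idx F)⁻¹ ∈
        D.diagonalSubgroup F → n * t * n⁻¹ =
      ((g * h * g⁻¹ : ↥(D.group F)) : GL D.Idx F) * t * ((g * h * g⁻¹ : ↥(D.group F)) : GL D.Idx F)⁻¹)
    {k : ℕ} (hk : G.perm n ^ k = 1) : ∀ x ∈ P, h ^ k * x = x * h ^ k := fun x hx => by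
  have e := conj_pow_eq G g hg hh hfus k x hx
  rw [commute_of_perm_eq_one G (pow_mem hn k) (hg x hx) (by rw [perm_pow G hn, hk]), mul_inv_cancel_right] at e
  exact mul_inv_eq_iff_eq_mul.1 (mul_left_cancel (mul_right_cancel (Subtype.coe_injective e)))

/-- The action of `W` on a subgroup of the torus realises its automizer. -/
theorem automizer [Fintype F] {P : Subgroup ↥(D.group F)} (g : ↥(D.group F))
    (hg : ∀ x ∈ P, ((g * x * g⁻¹ : ↥(D.group F)) : GL D.Idx F) ∈ D.diagonalSubgroup F) {h : ↥(D.group F)}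
    (hh : h ∈ Subgroup.normalizer (P : Set ↥(D.group F))) :
    ∃ σ ∈ G.finW D.rank, (∀ k : ℕ, σ ^ k = 1 → ∀ x ∈ P, h ^ k * x = x * h ^ k) ∧
      ∀ k : ℕ, (∀ r, (σ ^ k) r = G.negF r) → ∀ x ∈ P, h ^ k * x * (h ^ k)⁻¹ = x⁻¹ := by
  obtain ⟨n, hn, hfus⟩ := exists_monomial G (g * h * g⁻¹).2
  refine ⟨G.perm n, G.perm_mem_finW hn, fun k hk => commute_pow_of_fusion G g hg hh hn hfus hk,
    fun k hk x hx => ?_⟩
  have e := conj_pow_eq G g hg hh hfus k x hx
  rw [inverts_of_perm_neg G (pow_mem hn k) (hg x hx) (fun r => by rw [perm_pow G hn, hk])] at e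
  have this : g * (h ^ k * x * (h ^ k)⁻¹) * g⁻¹ = g * x⁻¹ * g⁻¹ :=
    Subtype.ext (e.trans (by push_cast; group))
  exact mul_left_cancel (mul_right_cancel this)

open Finset in
/-- `|G : T|` is prime to `ℓ` if `ℓ ∣ q - 1` and `ℓ ∤ |W|`. -/
theorem not_dvd_index [Fintype F] {ℓ : ℕ} [hℓ : Fact ℓ.Prime] (hq : ℓ ∣ Fintype.card F - 1)
    (hW : ¬ ℓ ∣ (G.finW D.rank).card) :
    ¬ ℓ ∣ ((D.diagonalSubgroup F).subgroupOf (D.group F)).index := by
  classical
  intro hdvd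
  set q := Fintype.card F with hqdef
  have hq1 : 1 ≤ q := Fintype.card_pos
  have hqmod : (q : ZMod ℓ) = 1 := by
    have : ((q - 1 : ℕ) : ZMod ℓ) = 0 := (CharP.cast_eq_zero_iff (ZMod ℓ) ℓ _).2 hq
    rwa [Nat.cast_sub hq1, Nat.cast_one, sub_eq_zero] at this
  have hcard := G.card_group (F := F)
  rw [G.card_borel] at hcard
  have hidx : ((D.diagonalSubgroup F).subgroupOf (D.group F)).index =
      q ^ (D.nroots / 2) * ∑ σ ∈ G.finW D.rank, q ^ G.nInv σ := by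
    have e := Subgroup.card_mul_index ((D.diagonalSubgroup F).subgroupOf (D.group F))
    rw [Nat.card_congr (Subgroup.subgroupOfEquivOfLe G.diagonal_le_group).toEquiv] at e
    refine Nat.eq_of_mul_eq_mul_left (Nat.card_pos (α := D.diagonalSubgroup F)) ?_
    rw [e, hcard]
    ring
  rw [hidx, ← CharP.cast_eq_zero_iff (ZMod ℓ) ℓ] at hdvd
  simp only [Nat.cast_mul, Nat.cast_pow, Nat.cast_sum, hqmod, one_pow, one_mul, sum_const, nsmul_eq_mul,
    mul_one] at hdvd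
  exact hW ((CharP.cast_eq_zero_iff (ZMod ℓ) ℓ _).1 hdvd)

/-- Every `ℓ`-subgroup is conjugate into the split torus. -/
theorem exists_conj_diagonal [Fintype F] {ℓ : ℕ} [Fact ℓ.Prime] (hq : ℓ ∣ Fintype.card F - 1)
    (hW : ¬ ℓ ∣ (G.finW D.rank).card) {P : Subgroup ↥(D.group F)} (hP : IsPGroup ℓ P) :
    ∃ g : ↥(D.group F), ∀ x ∈ P, ((g * x * g⁻¹ : ↥(D.group F)) : GL D.Idx F) ∈ D.diagonalSubgroup F := by
  haveI : Finite ↥(D.group F) := inferInstance
  obtain ⟨g, hg⟩ := exists_conj_le _ (not_dvd_index G hq hW) hP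
  exact ⟨g, fun x hx => hg x hx⟩

/-- Two commuting subgroups of coprime orders are conjugate into the torus together. -/
theorem exists_conj_diagonal_pair [Fintype F] {l₁ l₂ : ℕ} [Fact l₁.Prime] [Fact l₂.Prime]
    (hq₁ : l₁ ∣ Fintype.card F - 1) (hW₁ : ¬ l₁ ∣ (G.finW D.rank).card)
    (hq₂ : l₂ ∣ Fintype.card F - 1) (hW₂ : ¬ l₂ ∣ (G.finW D.rank).card)
    {P₁ P₂ : Subgroup ↥(D.group F)} (hP₁ : IsPGroup l₁ P₁) (hP₂ : IsPGroup l₂ P₂)
    (hc : ∀ a ∈ P₁, ∀ b ∈ P₂, b * a = a * b) :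
    ∃ g : ↥(D.group F), ∀ x ∈ P₁ ⊔ P₂, ((g * x * g⁻¹ : ↥(D.group F)) : GL D.Idx F) ∈ D.diagonalSubgroup F := by
  obtain ⟨g, hg⟩ := exists_conj_diagonal G hq₁ hW₁ hP₁
  set T := (D.diagonalSubgroup F).subgroupOf (D.group F) with hT
  set Q := P₁.map (MulAut.conj g).toMonoidHom with hQ
  set C := Subgroup.centralizer (Q : Set ↥(D.group F))
  have hTC : T ≤ C := fun t ht => Subgroup.mem_centralizer_iff.2 (by
    rintro _ ⟨x, hx, rfl⟩
    exact Subtype.ext (G.diagonal_comm (hg x hx) ht))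
  have hP₂' : P₂.map (MulAut.conj g).toMonoidHom ≤ C := by
    rintro _ ⟨b, hb, rfl⟩
    refine Subgroup.mem_centralizer_iff.2 ?_
    rintro _ ⟨a, ha, rfl⟩
    rw [← map_mul, ← map_mul, hc a ha b hb]
  have hidx : ¬ l₂ ∣ (T.subgroupOf C).index := fun h =>
    not_dvd_index G hq₂ hW₂ (h.trans (Subgroup.relIndex_dvd_index_of_le hTC))
  obtain ⟨c, hcT⟩ := exists_conj_le (T.subgroupOf C) hidx
    ((hP₂.map (MulAut.conj g).toMonoidHom).comap_subtype (K := C))
  have hle : P₁ ⊔ P₂ ≤ T.comap (MulAut.conj ((c : ↥(D.group F)) * g)).toMonoidHom := by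
    refine sup_le (fun x hx => ?_) fun x hx => ?_
    · have hgx : g * x * g⁻¹ ∈ T := hg x hx
      have e : (c : ↥(D.group F)) * (g * x * g⁻¹) * (c : ↥(D.group F))⁻¹ = g * x * g⁻¹ := by
        rw [← Subgroup.mem_centralizer_iff.1 c.2 (g * x * g⁻¹) ⟨x, hx, rfl⟩, mul_inv_cancel_right]
      rw [← e] at hgx
      simpa [Subgroup.mem_comap, mul_assoc] using hgx
    · have h1 := hcT ⟨g * x * g⁻¹, hP₂' ⟨x, hx, rfl⟩⟩ ⟨x, hx, rfl⟩
      rw [Subgroup.mem_subgroupOf] at h1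
      simpa [Subgroup.mem_comap, mul_assoc] using h1
  exact ⟨(c : ↥(D.group F)) * g, fun x hx => hle hx⟩

end Cfsg.Agent.H88.ChevSylow
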