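import Cfsg.Agent.H47.PlusEight
import Cfsg.Agent.H70.Steinberg.Perfect
import Cfsg.Agent.H70.Steinberg.Instances
import Cfsg.Agent.H46.Simple

/-!
# Matrices over the natural eight dimensional module for elements of the adjoint group of type D₄

An element of the adjoint group has a lift to an isometry of determinant one, unique up to sign; conjugation of root
elements is seen exactly, so lifts of monomial elements are monomial.
-/

set_option autoImplicit false
set_option maxRecDepth 100000

namespace Cfsg.Agent.H88.AltD4Twist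

open Cfsg.Lie Cfsg.Agent.H46 Cfsg.Agent.H47 Cfsg.Agent.H5 Cfsg.Agent.H70.Steinberg
open scoped Matrix MatrixGroups

/-- The matrix of a root on the coordinates `0, …, 7`. -/
def NZ (r : ℕ) : Matrix (Fin 8) (Fin 8) ℤ := Matrix.of fun i j =>
  if i.val = PlusEight.fstC r ∧ j.val = PlusEight.opp (PlusEight.sndC r) then PlusEight.sgnC r
  else if i.val = PlusEight.sndC r ∧ j.val = PlusEight.opp (PlusEight.fstC r) then -PlusEight.sgnC r else 0

theorem soMat_check : ∀ r : Fin 24, ∀ i : Fin 8, ∀ j : Fin 8,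
    (PlusEight.soMat r.val (PlusEight.code.symm i) (PlusEight.code.symm j) == NZ r.val i j) = true := by
  decide +kernel

theorem soMat_eq (r : Fin 24) (i j : Fin 8) :
    PlusEight.soMat r.val (PlusEight.code.symm i) (PlusEight.code.symm j) = NZ r.val i j :=
  eq_of_beq (soMat_check r i j)

/-- The opposite coordinate. -/
def op8 (i : Fin 8) : Fin 8 := i + 4

/-- The form, over the integers. -/
def JZ : Matrix (Fin 8) (Fin 8) ℤ := Matrix.of fun i j => if j = op8 i then 1 else 0

theorem NZ_isom : ∀ r : Fin 24, (NZ r.val)ᵀ * JZ + JZ * NZ r.val = 0 ∧ (NZ r.val)ᵀ * JZ * NZ r.val = 0 ∧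
    (NZ r.val).trace = 0 := by decide +kernel

/-- Two roots through a coordinate. -/
def pick (a : Fin 8) : Fin 24 × Fin 24 :=
  ![(23, 22), (23, 17), (22, 17), (20, 15), (0, 1), (0, 6), (1, 6), (3, 11)] a

/-- The product of matrices of roots which is a matrix unit. -/
def unitWord (img : ℕ → ℕ) (a : Fin 8) : Matrix (Fin 8) (Fin 8) ℤ :=
  NZ (img (pick a).1.val) * NZ (img (23 - (pick a).1.val)) * (NZ (img (pick a).2.val) * NZ (img (23 - (pick a).2.val)))

/-- An integer certificate that `img` moves the coordinates by `σ`. -/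
def Moves (img : ℕ → ℕ) (σ : Fin 8 → Fin 8) : Prop :=
  ∀ a : Fin 8, unitWord img a = Matrix.single (σ a) (σ a) 1 ∨ unitWord img a = Matrix.single (σ a) (σ a) (-1)

instance (img : ℕ → ℕ) (σ : Fin 8 → Fin 8) : Decidable (Moves img σ) :=
  inferInstanceAs (Decidable (∀ _, _ ∨ _))

theorem moves_id : Moves id id := by decide +kernel

theorem connected : ∀ a : Fin 8, ∃ (q : Fin 8) (r s : Fin 24), NZ r.val a q ≠ 0 ∧ NZ s.val q 0 ≠ 0 := by
  decide +kernel

theorem NZ_check : ∀ r : Fin 24, ∀ i : Fin 8, ∀ j : Fin 8,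
    (NZ r.val i j == 0 || NZ r.val i j == 1 || NZ r.val i j == -1) = true := by
  decide +kernel

theorem NZ_unit (r : Fin 24) (i j : Fin 8) : NZ r.val i j = 0 ∨ NZ r.val i j = 1 ∨ NZ r.val i j = -1 := by
  have h := NZ_check r i j
  simp only [Bool.or_eq_true, beq_iff_eq] at h
  tauto

variable (K : Type*) [Field K]

/-- The matrix of a root over `K`. -/
def N (r : ℕ) : Matrix (Fin 8) (Fin 8) K := (NZ r).map (Int.cast : ℤ → K)

/-- The form over `K`. -/
def J : Matrix (Fin 8) (Fin 8) K := Matrix.of fun i j => if j = op8 i then 1 else 0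

theorem J_eq : J K = JZ.map (Int.cast : ℤ → K) := by ext i j; simp [J, JZ, apply_ite (Int.cast : ℤ → K)]

theorem N_facts {r : ℕ} (hr : r < 24) :
    (N K r)ᵀ * J K + J K * N K r = 0 ∧ (N K r)ᵀ * J K * N K r = 0 ∧ (N K r).trace = 0 := by
  obtain ⟨h1, h2, h3⟩ := NZ_isom ⟨r, hr⟩
  set f := (Int.castRingHom K).mapMatrix (m := Fin 8)
  refine ⟨?_, ?_, ?_⟩
  · have := congrArg f h1
    rw [map_add, map_mul, map_mul, map_zero] at this
    simp only [f, RingHom.mapMatrix_apply, Matrix.transpose_map] at this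
    rw [J_eq, N]
    exact this
  · have := congrArg f h2
    rw [map_mul, map_mul, map_zero] at this
    simp only [f, RingHom.mapMatrix_apply, Matrix.transpose_map] at this
    rw [J_eq, N]
    exact this
  · rw [N, show ((Int.cast : ℤ → K)) = ⇑(Int.castRingHom K).toAddMonoidHom from rfl,
      ← AddMonoidHom.map_trace, h3, map_zero]

variable {K}

theorem N_single {a b : Fin 8} {c : ℤ} {A : Matrix (Fin 8) (Fin 8) ℤ} (h : A = Matrix.single a b c) :
    A.map (Int.cast : ℤ → K) = Matrix.single a b (c : K) := by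
  subst h; ext i j; simp [Matrix.single, apply_ite (Int.cast : ℤ → K)]

/-- The isometries as matrices. -/
noncomputable def toGL : orth (qPlus 4 K) →* GL (Fin 8) K :=
  let f : ((Fin 4 ⊕ Fin 4 → K) ≃ₗ[K] (Fin 4 ⊕ Fin 4 → K)) →* Matrix (Fin 8) (Fin 8) K :=
    (((Matrix.reindexAlgEquiv K K PlusEight.code).toMulEquiv.toMonoidHom).comp
      (LinearMap.toMatrixAlgEquiv' (R := K) (n := Fin 4 ⊕ Fin 4)).toMulEquiv.toMonoidHom).comp
      (LinearEquiv.automorphismGroup.toLinearMapMonoidHom)
  (f.comp (orth (qPlus 4 K)).subtype).toHomUnits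

theorem coe_toGL_τ {r : ℕ} (hr : r < 24) (t : K) :
    (toGL (PlusEight.τ K r t) : Matrix (Fin 8) (Fin 8) K) = 1 + t • N K r := by
  have e : LinearMap.toMatrixAlgEquiv' ((PlusEight.τ K r t : orth (qPlus 4 K)) :
      (Fin 4 ⊕ Fin 4 → K) ≃ₗ[K] (Fin 4 ⊕ Fin 4 → K)).toLinearMap =
      1 + t • (PlusEight.soMat r).map (Int.castRingHom K) := by
    apply LinearMap.toMatrixAlgEquiv'.symm.injective
    rw [AlgEquiv.symm_apply_apply]
    refine LinearMap.ext fun x => ?_
    rw [LinearEquiv.coe_coe, PlusEight.τ_apply (show r < chevD4.nroots from hr)]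
    rfl
  show Matrix.reindexAlgEquiv K K PlusEight.code (LinearMap.toMatrixAlgEquiv' _) = _
  erw [e]
  rw [map_add, map_one, map_smul]
  congr 2
  ext i j
  simp [N, soMat_eq ⟨r, hr⟩ i j]

variable (K) in
theorem lift_rels : ∀ g ∈ chevD4.steinbergRelsAB K,
    FreeGroup.lift (fun p : Fin chevD4.nroots × K => PlusEight.τ K p.1.val p.2) g = 1 := by
  have hX : ∀ {r : ℕ}, r < chevD4.nroots → ∀ t : K,
      FreeGroup.lift (fun p : Fin chevD4.nroots × K => PlusEight.τ K p.1.val p.2) (chevD4.stX r t) =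
        PlusEight.τ K r t := by
    intro r hr t
    simp [ChevalleyDatum.stX, hr]
  have hW : ∀ w : List (ℕ × K), (∀ p ∈ w, p.1 < chevD4.nroots) →
      FreeGroup.lift (fun p : Fin chevD4.nroots × K => PlusEight.τ K p.1.val p.2) (chevD4.stWord w) =
        wordEval (PlusEight.τ K) w := by
    intro w
    induction w with
    | nil => simp [ChevalleyDatum.stWord, wordEval]
    | cons p w ih =>
      intro h
      have ih' := ih fun q hq => h q (List.mem_cons_of_mem _ hq)
      simp only [ChevalleyDatum.stWord, wordEval, List.map_cons, List.prod_cons, map_mul] at ih' ⊢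
      rw [ih', hX (h p List.mem_cons_self)]
  rintro g (⟨r, t, u, hr, rfl⟩ | ⟨r, s, t, u, hr, hs, h1, h2, rfl⟩)
  · simp [hX hr, PlusEight.τ_add r hr]
  · simp only [map_mul, map_inv, hX hr, hX hs, hW _ (commWord_lt goodD4 hr hs t u)]
    rw [mul_assoc (_ * _) (PlusEight.τ K s u) (PlusEight.τ K r t), PlusEight.τ_comm r s hr hs h1 h2]
    group

/-- The representation of the cover. -/
noncomputable def rep : chevD4.SteinbergCover K →* GL (Fin 8) K :=
  toGL.comp (PresentedGroup.toGroup (lift_rels K))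

variable (K) in
/-- The presentation of the adjoint group by the cover. -/
noncomputable def pres : Pres goodD4 K (chevD4.SteinbergCover K) := coverPres goodD4

theorem rep_X {r : ℕ} (hr : r < 24) (t : K) :
    (rep ((pres K).X r t) : Matrix (Fin 8) (Fin 8) K) = 1 + t • N K r := by
  show (toGL (FreeGroup.lift (fun p : Fin chevD4.nroots × K => PlusEight.τ K p.1.val p.2) (chevD4.stX r t)) :
    Matrix (Fin 8) (Fin 8) K) = _
  rw [show FreeGroup.lift (fun p : Fin chevD4.nroots × K => PlusEight.τ K p.1.val p.2) (chevD4.stX r t) =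
    PlusEight.τ K r t by simp [ChevalleyDatum.stX, show r < chevD4.nroots from hr], coe_toGL_τ hr]

theorem det_eq_one {Γ : Type*} [Group Γ] (h : commutator Γ = ⊤) (ρ : Γ →* GL (Fin 8) K) (y : Γ) :
    (ρ y : Matrix (Fin 8) (Fin 8) K).det = 1 := by
  have h1 : y ∈ (Matrix.GeneralLinearGroup.det.comp ρ).ker :=
    Abelianization.commutator_subset_ker _ (h.ge (Subgroup.mem_top y))
  rw [MonoidHom.mem_ker, MonoidHom.comp_apply] at h1
  rw [← Matrix.GeneralLinearGroup.val_det_apply, h1, Units.val_one]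

theorem det_rep (y : chevD4.SteinbergCover K) : (rep y : Matrix (Fin 8) (Fin 8) K).det = 1 := by
  have hD : chevD4 ∈ [chevG2, chevB2, chevD4, chevF4, chevE6, chevE7, chevE8] := by simp
  have hperf := perfect_of_mem (pres K) hD (fun h => absurd
    (List.mem_map_of_mem (f := fun D : ChevalleyDatum => D.nroots) h) (by decide +kernel))
  exact det_eq_one hperf rep y

theorem isom_rep (y : chevD4.SteinbergCover K) :
    (rep y : Matrix (Fin 8) (Fin 8) K)ᵀ * J K * (rep y : Matrix (Fin 8) (Fin 8) K) = J K := by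
  have hy : y ∈ Subgroup.closure {g | ∃ (r : ℕ) (t : K), r < chevD4.nroots ∧ g = (pres K).X r t} := by
    rw [(pres K).gen]; trivial
  induction hy using Subgroup.closure_induction with
  | mem x hx =>
    obtain ⟨r, t, hr, rfl⟩ := hx
    obtain ⟨h1, h2, -⟩ := N_facts K (show r < 24 from hr)
    rw [rep_X hr, Matrix.transpose_add, Matrix.transpose_one, Matrix.transpose_smul]
    calc (1 + t • (N K r)ᵀ) * J K * (1 + t • N K r)
        = J K + t • ((N K r)ᵀ * J K + J K * N K r) + (t * t) • ((N K r)ᵀ * J K * N K r) := by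
          simp only [add_mul, mul_add, one_mul, mul_one, smul_mul_assoc, mul_smul_comm, smul_smul, smul_add]
          module
      _ = J K := by rw [h1, h2, smul_zero, smul_zero, add_zero, add_zero]
  | one => simp
  | mul a b _ _ ha hb =>
    rw [map_mul, Units.val_mul, Matrix.transpose_mul]
    calc _ = (rep b : Matrix (Fin 8) (Fin 8) K)ᵀ * ((rep a : Matrix (Fin 8) (Fin 8) K)ᵀ * J K *
          (rep a : Matrix (Fin 8) (Fin 8) K)) * (rep b : Matrix (Fin 8) (Fin 8) K) := by
          simp only [mul_assoc]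
      _ = _ := by rw [ha, hb]
  | inv a _ ha =>
    rw [map_inv]
    set A := (rep a : Matrix (Fin 8) (Fin 8) K) with hA
    set B := (((rep a)⁻¹ : GL (Fin 8) K) : Matrix (Fin 8) (Fin 8) K) with hB
    have e : A * B = 1 := (rep a).mul_inv
    calc Bᵀ * J K * B = Bᵀ * (Aᵀ * J K * A) * B := by rw [ha]
      _ = (A * B)ᵀ * J K * (A * B) := by rw [Matrix.transpose_mul]; simp only [mul_assoc]
      _ = J K := by rw [e]; simp

/-- A matrix lifting an element of the adjoint group. -/
def Lift (g : ↥(chevD4.group K)) (M : Matrix (Fin 8) (Fin 8) K) : Prop :=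
  ∃ y, (pres K).θ y = g ∧ (rep y : Matrix (Fin 8) (Fin 8) K) = M

theorem exists_lift (g : ↥(chevD4.group K)) : ∃ M, Lift g M :=
  ((pres K).θ_surjective g).elim fun y hy => ⟨_, y, hy, rfl⟩

theorem Lift.mul {g g' : ↥(chevD4.group K)} {M M' : Matrix (Fin 8) (Fin 8) K} (h : Lift g M) (h' : Lift g' M') :
    Lift (g * g') (M * M') := by
  obtain ⟨y, rfl, rfl⟩ := h; obtain ⟨y', rfl, rfl⟩ := h'
  exact ⟨y * y', map_mul _ _ _, by rw [map_mul, Units.val_mul]⟩

theorem Lift.det {g : ↥(chevD4.group K)} {M : Matrix (Fin 8) (Fin 8) K} (h : Lift g M) : M.det = 1 := by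
  obtain ⟨y, -, rfl⟩ := h; exact det_rep y

theorem Lift.isom {g : ↥(chevD4.group K)} {M : Matrix (Fin 8) (Fin 8) K} (h : Lift g M) : Mᵀ * J K * M = J K := by
  obtain ⟨y, -, rfl⟩ := h; exact isom_rep y

/-- A matrix moving the root matrices moves the matrix units. -/
theorem moves_single {M : Matrix (Fin 8) (Fin 8) K} (hM : M.det ≠ 0) {img : ℕ → ℕ} {σ : Fin 8 → Fin 8}
    (hcert : Moves img σ) (k : ℕ → K) (hk : ∀ r < 24, k r ≠ 0)
    (hN : ∀ r < 24, M * N K r = k r • (N K (img r) * M)) (a : Fin 8) :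
    M * Matrix.single a a 1 = Matrix.single (σ a) (σ a) 1 * M := by
  obtain ⟨⟨r, hr⟩, ⟨s, hs⟩, hpick⟩ : ∃ r s, pick a = (r, s) := ⟨_, _, rfl⟩
  set cast := (Int.castRingHom K).mapMatrix (m := Fin 8)
  set c := k r * k (23 - r) * (k s * k (23 - s))
  have hc : c ≠ 0 := mul_ne_zero (mul_ne_zero (hk r hr) (hk _ (by omega))) (mul_ne_zero (hk s hs) (hk _ (by omega)))
  have h2 : ∀ r s, r < 24 → s < 24 →
      M * (N K r * N K s) = (k r * k s) • (N K (img r) * N K (img s) * M) := fun r s hr hs => by
    rw [← mul_assoc, hN r hr, smul_mul_assoc, mul_assoc, hN s hs, mul_smul_comm, smul_smul, mul_assoc]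
  have h4 : M * cast (unitWord id a) = c • (cast (unitWord img a) * M) := by
    simp only [unitWord, hpick, map_mul, id_eq]
    show M * (N K r * N K (23 - r) * (N K s * N K (23 - s))) =
      c • (N K (img r) * N K (img (23 - r)) * (N K (img s) * N K (img (23 - s))) * M)
    rw [← mul_assoc, h2 r _ hr (by omega), smul_mul_assoc, mul_assoc _ M, h2 s _ hs (by omega), mul_smul_comm,
      smul_smul]
    simp only [c, mul_assoc]
  obtain ⟨e, he, hu⟩ : ∃ e : K, e ≠ 0 ∧ cast (unitWord id a) = e • Matrix.single a a 1 := by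
    rcases moves_id a with h | h
    · exact ⟨1, one_ne_zero, by rw [one_smul]; exact (N_single h).trans (by simp)⟩
    · exact ⟨-1, neg_ne_zero.2 one_ne_zero, (N_single h).trans (by ext i j; simp [Matrix.single, apply_ite Neg.neg])⟩
  obtain ⟨e', he', hu'⟩ : ∃ e : K, e ≠ 0 ∧ cast (unitWord img a) = e • Matrix.single (σ a) (σ a) 1 := by
    rcases hcert a with h | h
    · exact ⟨1, one_ne_zero, by rw [one_smul]; exact (N_single h).trans (by simp)⟩
    · exact ⟨-1, neg_ne_zero.2 one_ne_zero, (N_single h).trans (by ext i j; simp [Matrix.single, apply_ite Neg.neg])⟩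
  rw [hu, hu', mul_smul_comm, smul_mul_assoc, smul_smul] at h4
  set E := Matrix.single a a (1 : K)
  set E' := Matrix.single (σ a) (σ a) (1 : K)
  set l := e⁻¹ * (c * e') with hl
  have h5 : M * E = l • (E' * M) := by
    rw [← inv_smul_smul₀ he (M * E), h4, smul_smul]
  have hl0 : l ≠ 0 := mul_ne_zero (inv_ne_zero he) (mul_ne_zero hc he')
  have h6 : M * E = l • M * E := by
    calc M * E = M * (E * E) := by simp [E]
      _ = l • (E' * (M * E)) := by conv_lhs => rw [← mul_assoc, h5, smul_mul_assoc, mul_assoc]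
      _ = l • (E' * (l • (E' * M))) := congrArg (fun X => l • (E' * X)) h5
      _ = l • (l • (E' * E' * M)) := by rw [mul_smul_comm, ← mul_assoc]
      _ = l • M * E := by rw [show E' * E' = E' by simp [E'], ← h5, smul_mul_assoc]
  have hl1 : l = 1 := by
    by_contra hne
    have hz : (l - 1) • (M * E) = 0 := by rw [sub_smul, one_smul, ← smul_mul_assoc, ← h6, sub_self]
    have hME : M * E = 0 := (smul_eq_zero.1 hz).resolve_left (sub_ne_zero.2 hne)
    have hE : E = 0 := by
      have := congrArg (fun A => M⁻¹ * A) hME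
      simp only [mul_zero, ← mul_assoc, Matrix.nonsing_inv_mul M (isUnit_iff_ne_zero.2 hM), one_mul] at this
      exact this
    exact one_ne_zero (α := K) (by simpa [E] using congrFun (congrFun hE a) a)
  rw [h5, hl1, one_smul]

/-- A moved matrix is monomial. -/
theorem monomial_entry {M : Matrix (Fin 8) (Fin 8) K} {σ : Fin 8 → Fin 8}
    (h : ∀ a, M * Matrix.single a a 1 = Matrix.single (σ a) (σ a) 1 * M) {i a : Fin 8} (hne : i ≠ σ a) :
    M i a = 0 := by
  have e := congrFun (congrFun (h a) i) a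
  rwa [Matrix.mul_single_apply_same, mul_one, Matrix.single_mul_apply_of_ne _ _ _ _ _ hne] at e

/-- Two lifts differ by a sign. -/
theorem Lift.unique {g : ↥(chevD4.group K)} {M M' : Matrix (Fin 8) (Fin 8) K} (h : Lift g M) (h' : Lift g M') :
    M' = M ∨ M' = -M := by
  obtain ⟨y, rfl, rfl⟩ := h
  obtain ⟨y', hy', rfl⟩ := h'
  have hD : chevD4 ∈ [chevG2, chevB2, chevD4, chevF4, chevE6, chevE7, chevE8] := by simp
  set z := y⁻¹ * y' with hz
  have hzc : z ∈ Subgroup.center (chevD4.SteinbergCover K) := by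
    rw [← (pres K).ker_eq_center (cert_of_mem hD), MonoidHom.mem_ker, map_mul, map_inv, hy', inv_mul_cancel]
  set Z := (rep z : Matrix (Fin 8) (Fin 8) K)
  have hcomm : ∀ r < 24, Z * N K r = (1 : K) • (N K (id r) * Z) := fun r hr => by
    have e := congrArg (fun x => (rep x : Matrix (Fin 8) (Fin 8) K))
      (Subgroup.mem_center_iff.1 hzc ((pres K).X r 1))
    simp only [map_mul, Units.val_mul, rep_X hr, one_smul, add_mul, mul_add, one_mul, mul_one] at e
    rw [one_smul, id_eq]
    exact (add_left_cancel e).symm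
  have hdiag := moves_single (M := Z) (by rw [det_rep]; exact one_ne_zero) moves_id (fun _ => 1)
    (fun _ _ => one_ne_zero) hcomm
  have hd : ∀ i j, i ≠ j → Z i j = 0 := fun i j hij => monomial_entry hdiag hij
  have hedge : ∀ (r : Fin 24) (p q : Fin 8), NZ r.val p q ≠ 0 → Z p p = Z q q := fun r p q hne => by
    have e := congrFun (congrFun (hcomm r r.2) p) q
    rw [one_smul, id_eq, Matrix.mul_apply, Matrix.mul_apply, Finset.sum_eq_single p (fun b _ hb => by rw [hd p b hb.symm, zero_mul])
      (by simp), Finset.sum_eq_single q (fun b _ hb => by rw [hd b q hb, mul_zero]) (by simp)] at e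
    have hN : N K r.val p q ≠ 0 := by
      rcases NZ_unit r p q with h | h | h
      · exact absurd h hne
      all_goals simp [N, h]
    exact mul_right_cancel₀ hN (e.trans (mul_comm _ _))
  have hscal : ∀ a, Z a a = Z 0 0 := fun a => by
    obtain ⟨q, r, s, h1, h2⟩ := connected a
    exact (hedge r a q h1).trans (hedge s q 0 h2)
  have hsq : Z 0 0 * Z 0 0 = 1 := by
    have hZi : Zᵀ * J K * Z = J K := isom_rep z
    clear_value Z
    have e := congrFun (congrFun hZi 0) (op8 0)
    rw [Matrix.mul_apply, Finset.sum_eq_single (op8 0) (fun b _ hb => by rw [hd b _ hb, mul_zero]) (by simp),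
      Matrix.mul_apply, Finset.sum_eq_single 0 (fun b _ hb => by
        rw [Matrix.transpose_apply, hd b 0 hb, zero_mul]) (by simp), Matrix.transpose_apply, hscal] at e
    rw [hscal (op8 0)] at e
    simpa [J] using e
  have hy : y' = y * z := by rw [hz, mul_inv_cancel_left]
  have hZ : Z = Z 0 0 • 1 := by
    ext i j
    rcases eq_or_ne i j with rfl | hij
    · simp [hscal i]
    · simp [hd i j hij, hij]
  rw [hy, map_mul, Units.val_mul, show (rep z : Matrix (Fin 8) (Fin 8) K) = Z from rfl, hZ, mul_smul_comm, mul_one]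
  rcases mul_self_eq_one_iff.1 hsq with h | h
  · exact Or.inl (by rw [h, one_smul])
  · exact Or.inr (by rw [h, neg_one_smul])

/-- Lifts see the conjugation of root elements exactly. -/
theorem Lift.conj_root (h16 : (16 : K) ≠ 0) {g : ↥(chevD4.group K)} {M : Matrix (Fin 8) (Fin 8) K} (h : Lift g M)
    {r r' : ℕ} (hr : r < 24) (hr' : r' < 24) {c : K}
    (e : (g : GL chevD4.Idx K) * goodD4.xg r 1 * (g : GL chevD4.Idx K)⁻¹ = goodD4.xg r' c) :
    M * N K r = c • (N K r' * M) := by
  obtain ⟨y, rfl, rfl⟩ := h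
  set P := pres K
  set x := y * P.X r 1 * y⁻¹
  have hx : P.θ x = P.θ (P.X r' c) := Subtype.ext (by
    show P.π (y * P.X r 1 * y⁻¹) = P.π (P.X r' c)
    rw [map_mul, map_mul, map_inv, P.π_X r hr, P.π_X r' hr']
    exact e)
  rcases Lift.unique (g := P.θ x) ⟨P.X r' c, hx.symm, rfl⟩ ⟨x, rfl, rfl⟩ with hs | hs <;>
    rw [rep_X hr', map_mul, map_mul, map_inv, Units.val_mul, Units.val_mul, rep_X hr, one_smul] at hs
  · have e2 := congrArg (fun A => A * (rep y : Matrix (Fin 8) (Fin 8) K)) hs
    simp only [mul_assoc, Units.inv_mul, mul_one, mul_add, add_mul, one_mul, smul_mul_assoc] at e2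
    exact add_left_cancel e2
  · have e2 := congrArg Matrix.trace hs
    rw [Matrix.trace_units_conj, Matrix.trace_neg, Matrix.trace_add, Matrix.trace_add, Matrix.trace_smul,
      (N_facts K hr).2.2, (N_facts K hr').2.2, Matrix.trace_one, smul_zero, add_zero] at e2
    refine absurd ?_ h16
    simp only [Fintype.card_fin, Nat.cast_ofNat] at e2
    linear_combination e2

end Cfsg.Agent.H88.AltD4Twist
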